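import Cfsg.Agent.H415.C3.Lift

/-!
# S1920, case B: the lifted kit, kills (helper415)

`(T : Kit …) (L : Lin Gh π) (l : LKit …)`:
* `LKit.mem_A`, `LKit.T1`, `LKit.T3`, `LKit.T4E`;
* `halfHom u` : for an involution `u`, the homomorphism `g ↦ (g on ker (u - 1), 1 on ker (u + 1))` on `C(u)`.
-/

set_option autoImplicit false

open Subgroup
open scoped commutatorElement

namespace Cfsg.Agent.H415.C3

variable {G : Type*} [Group G] {K : Type*} [Field K] {V : Type*} [AddCommGroup V] [Module K V]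

/-- a perfect subgroup is perfect as a group -/
theorem commutator_eq_top {X : Type*} [Group X] {H : Subgroup X} (h : ⁅H, H⁆ = H) : commutator ↥H = ⊤ := by
  refine Subgroup.map_injective H.subtype_injective ?_
  rw [commutator_def, Subgroup.map_commutator]
  simp only [← MonoidHom.range_eq_map, Subgroup.range_subtype]
  exact h

/-- a homomorphism of a perfect group with central values is trivial -/
theorem eq_one_of_central {X Y : Type*} [Group X] [Group Y] (h : commutator X = ⊤) (f : X →* Y)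
    (hf : ∀ x y, f x * f y = f y * f x) (x : X) : f x = 1 := by
  have h1 : commutator X ≤ f.ker := by
    rw [commutator_def, commutator_le]
    intro a _ b _
    rw [MonoidHom.mem_ker, map_commutatorElement, commutatorElement_eq_one_iff_mul_comm]
    exact hf a b
  have h2 : x ∈ f.ker := h1 (by rw [h]; trivial)
  exact h2

/-- the range of a homomorphism of a perfect group is perfect -/
theorem range_perfect {X Y : Type*} [Group X] [Group Y] (h : commutator X = ⊤) (f : X →* Y) :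
    ⁅f.range, f.range⁆ = f.range := by
  conv_lhs => rw [MonoidHom.range_eq_map]
  rw [← map_commutator, ← commutator_def, h, ← MonoidHom.range_eq_map]

namespace LKit

variable {Gh : Subgroup (V ≃ₗ[K] V)} {π : ↥Gh →* G} {N0 A E : Subgroup G} {z s x r : G}
  {ψ : ↥A →* Equiv.Perm (Fin 6)} {Nh Eh : Subgroup (V ≃ₗ[K] V)} {zh sh xh rh : V ≃ₗ[K] V}

theorem Nh_le (l : LKit Gh π N0 A E z s x r Nh Eh zh sh xh rh) : Nh ≤ Gh := fun g hg => ((l.mem_Nh g).1 hg).1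

theorem exists_Nh (L : Lin Gh π) (l : LKit Gh π N0 A E z s x r Nh Eh zh sh xh rh) {n : G} (hn : n ∈ N0) :
    ∃ m : ↥Gh, (m : V ≃ₗ[K] V) ∈ Nh ∧ π m = n := by
  obtain ⟨m, hm⟩ := L.surj n
  exact ⟨m, (l.mem_Nh _).2 ⟨m.2, by rw [← hm] at hn; exact hn⟩, hm⟩

theorem zG (l : LKit Gh π N0 A E z s x r Nh Eh zh sh xh rh) : zh ∈ Gh := l.Nh_le l.zN

theorem sG (l : LKit Gh π N0 A E z s x r Nh Eh zh sh xh rh) : sh ∈ Gh := l.Nh_le l.sN

/-- elements commuting with `Nh` up to scalars map into `C_G(N0)` -/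
theorem mem_C (L : Lin Gh π) (l : LKit Gh π N0 A E z s x r Nh Eh zh sh xh rh) {g : V ≃ₗ[K] V} (hg : g ∈ Gh)
    (h : ∀ n ∈ Nh, ∃ c : K, ∀ v, (g * n) v = c • (n * g) v) : ∀ n ∈ N0, π ⟨g, hg⟩ * n = n * π ⟨g, hg⟩ := by
  intro n hn
  obtain ⟨m, hm, rfl⟩ := l.exists_Nh L hn
  obtain ⟨c, hc⟩ := h _ hm
  rw [← map_mul, ← map_mul]
  exact L.eq_of_smul (g := ⟨g, hg⟩ * m) (h := m * ⟨g, hg⟩) hc

/-- **Membership in `A`.** -/
theorem mem_A (T : Kit N0 A E z s x r ψ) (L : Lin Gh π) (l : LKit Gh π N0 A E z s x r Nh Eh zh sh xh rh)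
    {g : V ≃ₗ[K] V} (hg : g ∈ Gh) (h : ∀ n ∈ Nh, ∃ c : K, (∀ v, (g * n) v = c • (n * g) v) ∨
      (∀ v, (g * n) v = c • (zh * n * g) v)) : π ⟨g, hg⟩ ∈ A := by
  rw [T.mem_A]
  intro n hn
  obtain ⟨m, hm, rfl⟩ := l.exists_Nh L hn
  obtain ⟨c, hc | hc⟩ := h _ hm
  · left
    rw [← map_mul, ← map_mul]
    exact L.eq_of_smul (g := ⟨g, hg⟩ * m) (h := m * ⟨g, hg⟩) hc
  · right
    have h1 := L.eq_of_smul (g := ⟨g, hg⟩ * m) (h := ⟨zh, l.zG⟩ * m * ⟨g, hg⟩) hc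
    rw [map_mul, map_mul, map_mul, l.pi_z, mul_assoc] at h1
    exact h1

/-- elements commuting with `Eh` up to scalars -/
theorem mem_E (L : Lin Gh π) (l : LKit Gh π N0 A E z s x r Nh Eh zh sh xh rh) {g : V ≃ₗ[K] V} (hg : g ∈ Gh)
    (h : ∀ e ∈ Eh, ∃ c : K, ∀ v, (g * e) v = c • (e * g) v) : ∀ e ∈ E, π ⟨g, hg⟩ * e = e * π ⟨g, hg⟩ := by
  intro e he
  obtain ⟨e', he', hee⟩ := l.Eh_surj e he
  obtain ⟨c, hc⟩ := h _ he'
  rw [← hee (l.Eh_le he'), ← map_mul, ← map_mul]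
  exact L.eq_of_smul (g := ⟨g, hg⟩ * ⟨e', l.Eh_le he'⟩) (h := ⟨e', l.Eh_le he'⟩ * ⟨g, hg⟩) hc

/-- **T1** -/
theorem T1 (T : Kit N0 A E z s x r ψ) (L : Lin Gh π) (l : LKit Gh π N0 A E z s x r Nh Eh zh sh xh rh)
    {g : V ≃ₗ[K] V} (hg : g ∈ Gh) (h : ∀ n ∈ Nh, ∃ c : K, (∀ v, (g * n) v = c • (n * g) v) ∨
      (∀ v, (g * n) v = c • (zh * n * g) v))
    (hE : ∀ e ∈ Eh, ∃ c : K, ∀ v, (g * e) v = c • (e * g) v) : ∃ c : K, c ≠ 0 ∧ ∀ v, (g * sh) v = c • (sh * g) v := by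
  have h1 := l.mem_A T L hg h
  have h2 := T.T1 h1 (l.mem_E L hg hE)
  refine L.smul_of_eq (g := ⟨g, hg⟩ * ⟨sh, l.sG⟩) (h := ⟨sh, l.sG⟩ * ⟨g, hg⟩) ?_
  rw [map_mul, map_mul, l.pi_s]
  exact h2

/-- **T4E** : a 2-element commuting with `Nh` and `Eh` is a scalar times a power of `sh`. -/
theorem T4E [Finite G] (T : Kit N0 A E z s x r ψ) (L : Lin Gh π) (l : LKit Gh π N0 A E z s x r Nh Eh zh sh xh rh)
    {g : V ≃ₗ[K] V} (hg : g ∈ Gh) (h : ∀ n ∈ Nh, ∃ c : K, ∀ v, (g * n) v = c • (n * g) v)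
    (hE : ∀ e ∈ Eh, ∃ c : K, ∀ v, (g * e) v = c • (e * g) v) {k : ℕ} (hk : IsSc (g ^ 2 ^ k)) :
    ∃ (i : ℕ) (c : K), c ≠ 0 ∧ ∀ v, g v = c • (sh ^ i) v := by
  have h1 : π ⟨g, hg⟩ ∈ zpowers s := by
    refine T.T4E (l.mem_C L hg h) (k := k) ?_ (l.mem_E L hg hE)
    rw [← map_pow]
    exact (L.ker _).2 hk
  obtain ⟨i, hi⟩ := mem_powers_iff_mem_zpowers.2 h1
  have hi' : s ^ i = π ⟨g, hg⟩ := hi
  obtain ⟨c, hc0, hc⟩ := L.smul_of_eq (g := ⟨g, hg⟩) (h := ⟨sh, l.sG⟩ ^ i) (by rw [map_pow, l.pi_s, hi'])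
  exact ⟨i, c, hc0, hc⟩

/-- **T3** -/
theorem T3 (T : Kit N0 A E z s x r ψ) (L : Lin Gh π) (l : LKit Gh π N0 A E z s x r Nh Eh zh sh xh rh)
    (ρ₁ ρ₂ : ↥Eh →* (V ≃ₗ[K] V)) (h₁ : ∀ e, ρ₁ e ∈ Gh) (h₂ : ∀ e, ρ₂ e ∈ Gh)
    (hN₁ : ∀ e, ∀ n ∈ Nh, ρ₁ e * n = n * ρ₁ e) (hN₂ : ∀ e, ∀ n ∈ Nh, ρ₂ e * n = n * ρ₂ e)
    (hc : ∀ e f, ρ₁ e * ρ₂ f = ρ₂ f * ρ₁ e) (he : ∀ e : ↥Eh, ρ₁ e * ρ₂ e = (e : V ≃ₗ[K] V)) :
    (∀ e, ρ₁ e = 1) ∨ (∀ e, ρ₂ e = 1) := by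
  have hp := commutator_eq_top l.Eh_perf
  let σ₁ : ↥Eh →* G := π.comp (ρ₁.codRestrict Gh h₁)
  let σ₂ : ↥Eh →* G := π.comp (ρ₂.codRestrict Gh h₂)
  have hσ₁ : ∀ e, σ₁ e = π ⟨ρ₁ e, h₁ e⟩ := fun e => rfl
  have hσ₂ : ∀ e, σ₂ e = π ⟨ρ₂ e, h₂ e⟩ := fun e => rfl
  have hA₁ : σ₁.range ≤ A := by
    rintro _ ⟨e, rfl⟩
    rw [hσ₁]
    exact l.mem_A T L _ fun n hn => ⟨1, Or.inl fun v => by rw [one_smul, hN₁ e n hn]⟩
  have hA₂ : σ₂.range ≤ A := by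
    rintro _ ⟨e, rfl⟩
    rw [hσ₂]
    exact l.mem_A T L _ fun n hn => ⟨1, Or.inl fun v => by rw [one_smul, hN₂ e n hn]⟩
  have key : ∀ (ρ : ↥Eh →* (V ≃ₗ[K] V)) (h : ∀ e, ρ e ∈ Gh), (π.comp (ρ.codRestrict Gh h)).range = ⊥ →
      ∀ e, ρ e = 1 := by
    intro ρ h hb
    refine eq_one_of_central hp ρ fun x y => ?_
    have h3 : π ⟨ρ x, h x⟩ = 1 := by
      have h4 : π ⟨ρ x, h x⟩ ∈ (π.comp (ρ.codRestrict Gh h)).range := ⟨x, rfl⟩
      rw [hb] at h4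
      exact h4
    exact ((L.ker _).1 h3).central _
  rcases T.T3 σ₁.range σ₂.range (range_perfect hp σ₁) (range_perfect hp σ₂) hA₁ hA₂ (by
    rintro _ ⟨e, rfl⟩ _ ⟨f, rfl⟩
    rw [hσ₁, hσ₂, ← map_mul, ← map_mul]
    exact congrArg π (Subtype.ext (hc e f))) (by
    intro e he'
    obtain ⟨g, hg, hge⟩ := l.Eh_surj e he'
    refine ⟨σ₁ ⟨g, hg⟩, ⟨_, rfl⟩, σ₂ ⟨g, hg⟩, ⟨_, rfl⟩, ?_⟩
    rw [hσ₁, hσ₂, ← map_mul, ← hge (l.Eh_le hg)]
    exact congrArg π (Subtype.ext (he ⟨g, hg⟩).symm)) with h | h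
  · exact Or.inl (key ρ₁ h₁ h)
  · exact Or.inr (key ρ₂ h₂ h)

/-- `Eh` is not trivial -/
theorem Eh_ne (T : Kit N0 A E z s x r ψ) (l : LKit Gh π N0 A E z s x r Nh Eh zh sh xh rh) : Eh ≠ ⊥ := by
  intro h
  have h1 : xh = 1 := by
    have := l.xE
    rwa [h] at this
  have h2 : x = 1 := by
    rw [← l.pi_x (by rw [h1]; exact one_mem _)]
    have : (⟨xh, by rw [h1]; exact one_mem _⟩ : ↥Gh) = 1 := Subtype.ext h1
    rw [this, map_one]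
  have h3 := T.psi_x (by rw [h2]; exact one_mem _)
  have h4 : (⟨x, by rw [h2]; exact one_mem _⟩ : ↥A) = 1 := Subtype.ext h2
  rw [h4, map_one] at h3
  exact c5_ne h3.symm

end LKit

section Half

/-- `g` on `ker (u - 1)`, the identity on `ker (u + 1)`, as a linear map -/
noncomputable def halfLin (u g : V ≃ₗ[K] V) : V →ₗ[K] V :=
  (2 : K)⁻¹ • ((g : V →ₗ[K] V) + (g : V →ₗ[K] V) ∘ₗ (u : V →ₗ[K] V)) + (2 : K)⁻¹ • (LinearMap.id - (u : V →ₗ[K] V))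

theorem halfLin_apply (u g : V ≃ₗ[K] V) (v : V) :
    halfLin u g v = (2 : K)⁻¹ • (g v + g (u v)) + (2 : K)⁻¹ • (v - u v) := rfl

theorem halfLin_pos (h2 : (2 : K) ≠ 0) (u g : V ≃ₗ[K] V) {v : V} (hv : u v = v) : halfLin u g v = g v := by
  rw [halfLin_apply, hv, sub_self, smul_zero, add_zero, ← two_smul K, smul_smul, inv_mul_cancel₀ h2, one_smul]

theorem halfLin_neg (h2 : (2 : K) ≠ 0) (u g : V ≃ₗ[K] V) {v : V} (hv : u v = -v) : halfLin u g v = v := by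
  rw [halfLin_apply, hv, map_neg, add_neg_cancel, smul_zero, zero_add, sub_neg_eq_add, ← two_smul K, smul_smul,
    inv_mul_cancel₀ h2, one_smul]

/-- decomposition of a vector -/
theorem half_decomp (h2 : (2 : K) ≠ 0) {u : V ≃ₗ[K] V} (hu : u * u = 1) (v : V) :
    ∃ a b : V, v = a + b ∧ u a = a ∧ u b = -b := by
  have huu : ∀ v, u (u v) = v := fun v => by
    have := congrArg (fun w : V ≃ₗ[K] V => w v) hu
    exact this
  refine ⟨(2 : K)⁻¹ • (v + u v), (2 : K)⁻¹ • (v - u v), ?_, ?_, ?_⟩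
  · rw [← smul_add, show v + u v + (v - u v) = (2 : K) • v by rw [two_smul]; abel, smul_smul, inv_mul_cancel₀ h2,
      one_smul]
  · rw [map_smul, map_add, huu, add_comm]
  · rw [map_smul, map_sub, huu, ← smul_neg, neg_sub]

theorem halfLin_mul (h2 : (2 : K) ≠ 0) {u : V ≃ₗ[K] V} (hu : u * u = 1) {g h : V ≃ₗ[K] V} (hh : h * u = u * h) (v : V) :
    halfLin u g (halfLin u h v) = halfLin u (g * h) v := by
  obtain ⟨a, b, rfl, ha, hb⟩ := half_decomp h2 hu v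
  have h1 : u (h a) = h a := by
    have := congrArg (fun w : V ≃ₗ[K] V => w a) hh
    have h3 : h (u a) = u (h a) := this
    rw [← h3, ha]
  rw [map_add, map_add, map_add, halfLin_pos h2 u h ha, halfLin_neg h2 u h hb, halfLin_pos h2 u g h1,
    halfLin_neg h2 u g hb, halfLin_pos h2 u _ ha, halfLin_neg h2 u _ hb]
  rfl

theorem halfLin_one (h2 : (2 : K) ≠ 0) {u : V ≃ₗ[K] V} (hu : u * u = 1) (v : V) : halfLin u 1 v = v := by
  obtain ⟨a, b, rfl, ha, hb⟩ := half_decomp h2 hu v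
  rw [map_add, halfLin_pos h2 u 1 ha, halfLin_neg h2 u 1 hb]
  rfl

/-- **the homomorphism `g ↦ (g on ker (u - 1), 1 on ker (u + 1))`** on the centraliser of `u`. -/
noncomputable def halfHom (h2 : (2 : K) ≠ 0) {u : V ≃ₗ[K] V} (hu : u * u = 1) :
    ↥(centralizer ({u} : Set (V ≃ₗ[K] V))) →* (V ≃ₗ[K] V) where
  toFun g := LinearEquiv.ofLinear (halfLin u g) (halfLin u (g⁻¹ : ↥(centralizer ({u} : Set (V ≃ₗ[K] V)))))
    (LinearMap.ext fun v => by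
      change halfLin u _ (halfLin u _ v) = v
      rw [halfLin_mul h2 hu (mem_centralizer_singleton_iff.1 (g⁻¹).2), ← Subgroup.coe_mul, mul_inv_cancel,
        Subgroup.coe_one, halfLin_one h2 hu])
    (LinearMap.ext fun v => by
      change halfLin u _ (halfLin u _ v) = v
      rw [halfLin_mul h2 hu (mem_centralizer_singleton_iff.1 g.2), ← Subgroup.coe_mul, inv_mul_cancel,
        Subgroup.coe_one, halfLin_one h2 hu])
  map_one' := by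
    ext v
    exact halfLin_one h2 hu v
  map_mul' g h := by
    ext v
    exact (halfLin_mul h2 hu (mem_centralizer_singleton_iff.1 h.2) v).symm

theorem halfHom_apply (h2 : (2 : K) ≠ 0) {u : V ≃ₗ[K] V} (hu : u * u = 1)
    (g : ↥(centralizer ({u} : Set (V ≃ₗ[K] V)))) (v : V) :
    halfHom h2 hu g v = (2 : K)⁻¹ • ((g : V ≃ₗ[K] V) v + (g : V ≃ₗ[K] V) (u v)) + (2 : K)⁻¹ • (v - u v) := rfl

theorem halfHom_pos (h2 : (2 : K) ≠ 0) {u : V ≃ₗ[K] V} (hu : u * u = 1)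
    (g : ↥(centralizer ({u} : Set (V ≃ₗ[K] V)))) {v : V} (hv : u v = v) : halfHom h2 hu g v = (g : V ≃ₗ[K] V) v :=
  halfLin_pos h2 u g hv

theorem halfHom_neg (h2 : (2 : K) ≠ 0) {u : V ≃ₗ[K] V} (hu : u * u = 1)
    (g : ↥(centralizer ({u} : Set (V ≃ₗ[K] V)))) {v : V} (hv : u v = -v) : halfHom h2 hu g v = v :=
  halfLin_neg h2 u g hv

end Half

end Cfsg.Agent.H415.C3
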